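import Cfsg.Agent.H74.E83.Trip
import Cfsg.Agent.H64.E83.Iota

/-!
# S5925, box K (A): the four word identities for the vectors `h_i` (helper977)

`h_i = - y x y t x w_i - x t y y x w_i - x y x w_i` for `i = 1, 2, 3, 4`, with `x = Ph Ax`, `y = Ph Ay`, `t = Ph At` acting
on the Lie algebra `L3` of `E₈(3)`. The engine is that of helper74: the vectors are columns of a packed matrix.

* `actX actY actT` : a word applied to a packed matrix; `okCol V j l` : column `j` of `V` is `vec l`; `col_of` : its meaning.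
-/

set_option autoImplicit false
set_option maxRecDepth 100000
set_option exponentiation.threshold 600

namespace Cfsg.Agent.H977.E83

open Matrix Cfsg.Lie Cfsg.Agent.ChevalleyStructure.Elts
open Cfsg.Agent.H992.E8X
open Cfsg.Agent.H788.E83 (SL5 Lt Ax Ay At wx wy wt ev)
open Cfsg.Agent.H74.E83 Cfsg.Agent.H74.E83.Trit Cfsg.Agent.H74.E83.Code Cfsg.Agent.H74.E83.Elim
open Cfsg.Agent.H74.E83.Trip
open Cfsg.Agent.H64.E83 (mx L3 er vec cf Ph vec_inl vec_inr)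
open Cfsg.Agent.H751.Two.Word (sz pos posOK)
open Cfsg.Agent.H751.Two.Code (wG)

/-! ### the engine -/

/-- force the evaluation of a number -/
def frc (V : ℕ) (k : ℕ → Bool) : Bool :=
  match V with
  | 0 => k 0
  | Nat.succ n => k (Nat.succ n)

theorem frc_eq (V : ℕ) (k : ℕ → Bool) : frc V k = k V := by cases V <;> rfl

/-- add a list to column `j` -/
def putL (j : ℕ) : List (ℕ × ℤ) → ℕ → ℕ
  | [], V => V
  | p :: l, V => put (putL j l V) (8 + p.1)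
      (bif Nat.beq (p.2 % 3).toNat 1 then tadd (row (putL j l V) (8 + p.1)) (tun j)
        else tsub (row (putL j l V) (8 + p.1)) (tun j))

theorem vldM_putL {j : ℕ} (hj : j < 256) (l : List (ℕ × ℤ)) {V : ℕ} (hV : VldM V) : VldM (putL j l V) := by
  induction l with
  | nil => exact hV
  | cons p l ih =>
    refine vldM_put ih ?_
    cases Nat.beq (p.2 % 3).toNat 1
    · exact vld_sub (ih _) (vld_un hj)
    · exact vld_add (ih _) (vld_un hj)

/-- the coordinate `j` of `w` is `c` -/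
def ok1 (w j : ℕ) (c : ℤ) : Bool :=
  match (c % 3).toNat with
  | 0 => !(Nat.beq (bt w j) 1) && !(Nat.beq (bt w (256 + j)) 1)
  | 1 => (Nat.beq (bt w j) 1) && !(Nat.beq (bt w (256 + j)) 1)
  | _ => !(Nat.beq (bt w j) 1) && (Nat.beq (bt w (256 + j)) 1)

theorem val_of_ok1 {w j : ℕ} {c : ℤ} (h : ok1 w j c = true) : val w j = (c : ZMod 3) := by
  have hc : ((c : ℤ) : ZMod 3) = ((c % 3 : ℤ) : ZMod 3) := (ZMod.intCast_mod c 3).symm
  have h3 : c % 3 = 0 ∨ c % 3 = 1 ∨ c % 3 = 2 := by omega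
  unfold ok1 at h
  rw [bt_eq, bt_eq] at h
  unfold val
  rw [hc]
  rcases h3 with h4 | h4 | h4
  · rw [h4] at h ⊢
    simp only [Int.toNat_zero, Bool.and_eq_true, Bool.not_eq_true'] at h
    rw [h.1, h.2]; rfl
  · rw [h4] at h ⊢
    simp only [Int.toNat_one, Bool.and_eq_true, Bool.not_eq_true'] at h
    rw [h.1, h.2]; decide
  · rw [h4] at h ⊢
    have h5 : (2 : ℤ).toNat = 2 := rfl
    rw [h5] at h
    simp only [Bool.and_eq_true, Bool.not_eq_true'] at h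
    rw [h.1, h.2]; decide

/-- the coordinate of `vec l` at position `i` -/
def cfz (l : List (ℕ × ℤ)) (i : ℕ) : ℤ := bif Nat.blt i 8 then 0 else cf l (i - 8)

theorem rank8 : chevE8.rank = 8 := rfl

theorem vec_pos (l : List (ℕ × ℤ)) (i : chevE8.Idx) : vec l i = (cfz l (pos chevE8 i) : ZMod 3) := by
  rcases i with i | u
  · rw [vec_inl]
    show (0 : ZMod 3) = (cfz l i.val : ZMod 3)
    have h : Nat.blt i.val 8 = true := by
      rw [Nat.blt_eq]; exact i.2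
    unfold cfz
    rw [h, cond_true, Int.cast_zero]
  · rw [vec_inr]
    show _ = (cfz l (8 + u.val) : ZMod 3)
    have h : Nat.blt (8 + u.val) 8 = false := by
      rw [Bool.eq_false_iff]
      intro h
      rw [Nat.blt_eq] at h
      omega
    unfold cfz
    rw [h, cond_false, Nat.add_sub_cancel_left]

/-- the check of a column, `f i` : row `i` -/
def okF (f : ℕ → ℕ) (j : ℕ) (l : List (ℕ × ℤ)) : Bool := (List.range 248).all fun i => ok1 (f i) j (cfz l i)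

/-- the column index -/
def ix (j : Fin 8) : chevE8.Idx := Sum.inl j

theorem pos_ix (j : Fin 8) : pos chevE8 (ix j) = j.val := rfl

/-- the column of `V` -/
def col (V : ℕ) (j : Fin 8) : L3 := semM chevE8 V *ᵥ Pi.single (ix j) 1

theorem col_apply (V : ℕ) (j : Fin 8) (i : chevE8.Idx) : col V j i = val (row V (pos chevE8 i)) j.val := by
  unfold col
  rw [Matrix.mulVec_single_one]
  rfl

theorem pos_lt' (i : chevE8.Idx) : pos chevE8 i < 248 := by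
  have := (posOK chevE8).lt i
  rwa [sz_eq] at this

theorem okF_spec {f : ℕ → ℕ} {j : ℕ} {l : List (ℕ × ℤ)} (h : okF f j l = true) (i : chevE8.Idx) :
    val (f (pos chevE8 i)) j = vec l i := by
  unfold okF at h
  rw [List.all_eq_true] at h
  rw [vec_pos]
  exact val_of_ok1 (h _ (List.mem_range.2 (pos_lt' i)))

/-- column `j` of `V` is `vec l` -/
theorem col_of {V : ℕ} {j : Fin 8} {l : List (ℕ × ℤ)} (h : okF (row V) j.val l = true) : col V j = vec l := by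
  funext i
  rw [col_apply, okF_spec h]

/-- minus the sum of three rows -/
def row3 (A B C i : ℕ) : ℕ := tneg (tadd (tadd (row A i) (row B i)) (row C i))

theorem col3_of {A B C : ℕ} (hA : VldM A) (hB : VldM B) (hC : VldM C) {j : Fin 8} {l : List (ℕ × ℤ)}
    (h : okF (row3 A B C) j.val l = true) : vec l = -col A j - col B j - col C j := by
  have hj : j.val < 256 := by have := j.2; omega
  funext i
  rw [← okF_spec h, Pi.sub_apply, Pi.sub_apply, Pi.neg_apply, col_apply, col_apply, col_apply]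
  unfold row3
  rw [val_neg (vld_add (vld_add (hA _) (hB _)) (hC _)) hj, val_add (vld_add (hA _) (hB _)) (hC _) hj,
    val_add (hA _) (hB _) hj]
  ring

/-! ### the letters -/

theorem act_of {w : List Lt} {W : List ℕ} (hw : ∀ l ∈ w, gd l) (hW : phw w = W) (h : okW TX W = true) {V : ℕ}
    (hV : VldM V) : VldM (wc TX W V) ∧ ∀ j, col (wc TX W V) j = mx (Ph (ev w)) *ᵥ col V j := by
  subst hW
  obtain ⟨h1, h2⟩ := sem_wc hE8 sz_le TX_ok h hV
  refine ⟨h1, fun j => ?_⟩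
  unfold col
  rw [h2, ← coe_ph_wG hw, Matrix.mulVec_mulVec]
  rfl

theorem act_x {V : ℕ} (hV : VldM V) : VldM (wc TX wX V) ∧ ∀ j, col (wc TX wX V) j = mx (Ph Ax) *ᵥ col V j :=
  act_of (w := wx) (by decide +kernel) (by decide +kernel) (by decide +kernel) hV

theorem act_y {V : ℕ} (hV : VldM V) : VldM (wc TX wY V) ∧ ∀ j, col (wc TX wY V) j = mx (Ph Ay) *ᵥ col V j :=
  act_of (w := wy) (by decide +kernel) (by decide +kernel) (by decide +kernel) hV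

theorem act_t {V : ℕ} (hV : VldM V) : VldM (wc TX wT V) ∧ ∀ j, col (wc TX wT V) j = mx (Ph At) *ᵥ col V j :=
  act_of (w := wt) (by decide +kernel) (by decide +kernel) (by decide +kernel) hV

/-! ### the data -/

/-- `w1` -/
def lw1 : List (ℕ × ℤ) :=
  [(4, 1), (5, 1), (7, 1), (8, 1), (9, 2), (15, 2), (21, 1), (126, 2), (127, 2), (128, 2), (129, 1), (131, 2),
   (133, 1), (134, 2), (139, 1), (140, 2), (143, 2), (145, 1), (146, 2), (150, 1), (151, 2), (152, 2), (153, 1),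
   (154, 1), (155, 1), (166, 2), (170, 1), (171, 2), (172, 2), (173, 1), (175, 2), (176, 1), (177, 1), (184, 2),
   (185, 1)]

/-- `w2` -/
def lw2 : List (ℕ × ℤ) :=
  [(17, 1), (18, 2), (19, 2), (22, 1), (23, 2), (25, 2), (26, 1), (28, 2), (29, 1), (37, 1), (38, 2), (39, 1),
   (156, 1), (157, 1), (158, 1), (159, 1), (160, 1), (161, 2)]

/-- `w3` -/
def lw3 : List (ℕ × ℤ) :=
  [(30, 1), (32, 2), (44, 2), (49, 2), (51, 2), (60, 2), (78, 1), (80, 2), (81, 1), (82, 1), (200, 1), (201, 2),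
   (211, 1), (214, 1), (216, 1), (217, 1), (220, 1), (222, 1)]

/-- `w4` -/
def lw4 : List (ℕ × ℤ) :=
  [(54, 1), (55, 2), (62, 2), (63, 2), (64, 2), (65, 1), (66, 1), (69, 2), (71, 2), (72, 2), (73, 1), (74, 1),
   (84, 2), (87, 2), (88, 2), (89, 1), (90, 2), (93, 2), (94, 2), (96, 2), (99, 2), (100, 1), (101, 1), (102, 1),
   (105, 2), (106, 2), (107, 1), (108, 2), (111, 1), (113, 2), (223, 1), (224, 1), (230, 2), (232, 2), (234, 2),
   (235, 2)]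

/-- `h1` -/
def lh1 : List (ℕ × ℤ) :=
  [(4, 2), (6, 1), (7, 2), (8, 1), (9, 2), (14, 2), (15, 2), (16, 1), (126, 2), (127, 1), (128, 2), (133, 2),
   (134, 2), (137, 1), (138, 1), (143, 2), (146, 2), (148, 2), (149, 1), (150, 2), (152, 2), (153, 2), (154, 1),
   (155, 1), (165, 2), (166, 1), (167, 1), (168, 2), (170, 1), (171, 1), (172, 1), (173, 1), (174, 1), (175, 2),
   (176, 1), (185, 1), (187, 2)]

/-- `h2` -/
def lh2 : List (ℕ × ℤ) :=
  [(18, 2), (19, 1), (23, 2), (25, 1), (28, 2), (29, 1), (159, 1), (160, 1), (161, 1), (178, 1), (179, 1),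
   (181, 1), (188, 2), (190, 1), (192, 1), (195, 2), (196, 2), (199, 1), (207, 2), (208, 2), (209, 2)]

/-- `h3` -/
def lh3 : List (ℕ × ℤ) :=
  [(31, 2), (32, 1), (43, 2), (44, 1), (51, 1), (61, 1), (78, 1), (80, 2), (81, 2), (200, 2), (211, 1), (214, 1),
   (216, 1), (220, 1), (222, 2)]

/-- `h4` -/
def lh4 : List (ℕ × ℤ) :=
  [(54, 2), (55, 1), (63, 2), (64, 1), (67, 1), (68, 1), (71, 2), (73, 1), (85, 1), (86, 1), (87, 1), (89, 1),
   (90, 1), (91, 1), (93, 2), (95, 2), (96, 2), (100, 1), (101, 2), (102, 2), (105, 1), (107, 2), (110, 2),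
   (111, 2), (112, 2), (113, 1), (218, 1), (223, 1), (224, 1), (225, 2), (230, 2), (231, 1), (232, 1), (234, 1),
   (235, 2)]

/-- the packed matrix with the columns `w_i` -/
def V0 : ℕ := putL 0 lw1 (putL 1 lw2 (putL 2 lw3 (putL 3 lw4 0)))

theorem vldM_V0 : VldM V0 :=
  vldM_putL (by norm_num) _ (vldM_putL (by norm_num) _ (vldM_putL (by norm_num) _ (vldM_putL (by norm_num) _ vldM_zero)))

theorem c0 : col V0 0 = vec lw1 := col_of (by decide +kernel)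
theorem c1 : col V0 1 = vec lw2 := col_of (by decide +kernel)
theorem c2 : col V0 2 = vec lw3 := col_of (by decide +kernel)
theorem c3 : col V0 3 = vec lw4 := col_of (by decide +kernel)

/-- `y x y t x`, `x t y y x`, `x y x` -/
def chk (k : ℕ → ℕ → ℕ → Bool) : Bool :=
  frc V0 fun V => frc (wc TX wX V) fun A => frc (wc TX wY A) fun B => frc (wc TX wX B) fun C3 =>
    frc (wc TX wX (wc TX wT (wc TX wY B))) fun B3 =>
      frc (wc TX wY (wc TX wX (wc TX wY (wc TX wT A)))) fun A3 => k A3 B3 C3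

theorem chk_ok : chk (fun A B C => okF (row3 A B C) 0 lh1 && (okF (row3 A B C) 1 lh2 && (okF (row3 A B C) 2 lh3 &&
    okF (row3 A B C) 3 lh4))) = true := by decide +kernel

/-- the word identity -/
theorem main {j : Fin 8} {w h : List (ℕ × ℤ)} (hw : col V0 j = vec w)
    (hh : okF (row3 (wc TX wY (wc TX wX (wc TX wY (wc TX wT (wc TX wX V0))))) (wc TX wX (wc TX wT (wc TX wY (wc TX wY (wc TX wX V0)))))
      (wc TX wX (wc TX wY (wc TX wX V0)))) j.val h = true) :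
    vec h = -(mx (Ph Ay) *ᵥ (mx (Ph Ax) *ᵥ (mx (Ph Ay) *ᵥ (mx (Ph At) *ᵥ (mx (Ph Ax) *ᵥ vec w))))) -
      mx (Ph Ax) *ᵥ (mx (Ph At) *ᵥ (mx (Ph Ay) *ᵥ (mx (Ph Ay) *ᵥ (mx (Ph Ax) *ᵥ vec w)))) -
      mx (Ph Ax) *ᵥ (mx (Ph Ay) *ᵥ (mx (Ph Ax) *ᵥ vec w)) := by
  obtain ⟨v1, e1⟩ := act_x vldM_V0
  obtain ⟨v2, e2⟩ := act_t v1
  obtain ⟨v3, e3⟩ := act_y v2
  obtain ⟨v4, e4⟩ := act_x v3
  obtain ⟨v5, e5⟩ := act_y v4
  obtain ⟨u2, f2⟩ := act_y v1
  obtain ⟨u3, f3⟩ := act_y u2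
  obtain ⟨u4, f4⟩ := act_t u3
  obtain ⟨u5, f5⟩ := act_x u4
  obtain ⟨z3, g3⟩ := act_x u2
  rw [col3_of v5 u5 z3 hh, e5, e4, e3, e2, e1, f5, f4, f3, f2, g3, f2, e1, hw]

theorem hvec :
    vec lh1 = -(mx (Ph Ay) *ᵥ (mx (Ph Ax) *ᵥ (mx (Ph Ay) *ᵥ (mx (Ph At) *ᵥ (mx (Ph Ax) *ᵥ vec lw1))))) -
      mx (Ph Ax) *ᵥ (mx (Ph At) *ᵥ (mx (Ph Ay) *ᵥ (mx (Ph Ay) *ᵥ (mx (Ph Ax) *ᵥ vec lw1)))) -
      mx (Ph Ax) *ᵥ (mx (Ph Ay) *ᵥ (mx (Ph Ax) *ᵥ vec lw1)) ∧
    vec lh2 = -(mx (Ph Ay) *ᵥ (mx (Ph Ax) *ᵥ (mx (Ph Ay) *ᵥ (mx (Ph At) *ᵥ (mx (Ph Ax) *ᵥ vec lw2))))) -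
      mx (Ph Ax) *ᵥ (mx (Ph At) *ᵥ (mx (Ph Ay) *ᵥ (mx (Ph Ay) *ᵥ (mx (Ph Ax) *ᵥ vec lw2)))) -
      mx (Ph Ax) *ᵥ (mx (Ph Ay) *ᵥ (mx (Ph Ax) *ᵥ vec lw2)) ∧
    vec lh3 = -(mx (Ph Ay) *ᵥ (mx (Ph Ax) *ᵥ (mx (Ph Ay) *ᵥ (mx (Ph At) *ᵥ (mx (Ph Ax) *ᵥ vec lw3))))) -
      mx (Ph Ax) *ᵥ (mx (Ph At) *ᵥ (mx (Ph Ay) *ᵥ (mx (Ph Ay) *ᵥ (mx (Ph Ax) *ᵥ vec lw3)))) -
      mx (Ph Ax) *ᵥ (mx (Ph Ay) *ᵥ (mx (Ph Ax) *ᵥ vec lw3)) ∧
    vec lh4 = -(mx (Ph Ay) *ᵥ (mx (Ph Ax) *ᵥ (mx (Ph Ay) *ᵥ (mx (Ph At) *ᵥ (mx (Ph Ax) *ᵥ vec lw4))))) -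
      mx (Ph Ax) *ᵥ (mx (Ph At) *ᵥ (mx (Ph Ay) *ᵥ (mx (Ph Ay) *ᵥ (mx (Ph Ax) *ᵥ vec lw4)))) -
      mx (Ph Ax) *ᵥ (mx (Ph Ay) *ᵥ (mx (Ph Ax) *ᵥ vec lw4)) := by
  have h := chk_ok
  unfold chk at h
  rw [frc_eq, frc_eq, frc_eq, frc_eq, frc_eq, frc_eq, Bool.and_eq_true, Bool.and_eq_true, Bool.and_eq_true] at h
  obtain ⟨h1, h2, h3, h4⟩ := h
  exact ⟨main c0 h1, main c1 h2, main c2 h3, main c3 h4⟩

end Cfsg.Agent.H977.E83
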