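import Cfsg.Agent.H977.E83.Wact

/-!
# S5925, box K: the elimination of the candidates, second part and base (helper977)

`n2` : `r = r₀ + z h₂` with (e2) has `z = 0`; `base` : `[q, [q, x¹⁰ q]] = 0`.
-/

set_option autoImplicit false
set_option maxRecDepth 100000
set_option exponentiation.threshold 600

namespace Cfsg.Agent.H977.E83.Cand

open Matrix Cfsg Cfsg.Lie
open Cfsg.Agent.ChevalleyStructure.JacTab Cfsg.Agent.ChevalleyStructure.JacMain
  Cfsg.Agent.ChevalleyStructure.JacDataE8 Cfsg.Agent.ChevalleyStructure.JacBridge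
open Cfsg.Agent.H788.E83 (SL5 Lt Ax Ay At wx)
open Cfsg.Agent.H64.E83 (mx L3 er vec Ph vec_eq)
open Cfsg.Agent.H738.E83
open Cfsg.Agent.H74.E83 (wX)
open Cfsg.Agent.H977.E83 (ql u0 r0 bh2 tr0 th2 yxxr0 yxxh2 y_q t_q xty_u0' t_r0 t_h2 yxx_r0 yxx_h2 zl vb_zl mx_pow act_x
  act_y act_t col col_of V1 vldM_V1 d0 x9 okF)

/-- `[q, r₀ - u₀] = 0` -/
theorem q_r0u0 : br (vb ql) (vb r0 - vb u0) = 0 := by
  have h := ((sem_vs (w := r0) (by decide +kernel)).ad3 (sem_vs (w := u0) (by decide +kernel)).ng).aw (w := ql)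
    (by decide +kernel)
  rw [← sub_eq_add_neg] at h
  exact h.eq_zero (by decide +kernel)

/-- `[q, h₂] = 0` -/
theorem q_h2 : br (vb ql) (vb bh2) = 0 :=
  ((sem_vs (w := bh2) (by decide +kernel)).aw (w := ql) (by decide +kernel)).eq_zero (by decide +kernel)

/-- `y x x r₀ - t r₀` -/
def a0 : List (ℕ × Bool) := [(14, true), (15, true), (16, true), (21, true), (126, false), (127, false), (131, false),
  (133, true), (137, false), (140, false), (144, true), (145, true), (149, false), (151, true), (154, false), (155, false)]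

/-- `y x x h₂ - t h₂` -/
def a2 : List (ℕ × Bool) := [(18, false), (19, true), (22, true), (23, true), (25, true), (26, true), (28, true),
  (29, true), (37, true), (38, false), (156, true), (157, true), (159, false), (160, true), (161, true), (178, false),
  (179, false), (181, false), (188, true), (190, false), (192, false), (195, true), (196, true), (199, false),
  (207, true), (208, true), (209, true)]

theorem vb_sub {a b c : List (ℕ × Bool)} (h : Cfsg.Agent.H64.E83.eqv (zl b ++ zl c) (zl a) = true) : vb a - vb b = vb c := by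
  have h1 := vec_eq h
  rw [Cfsg.Agent.H64.E83.vec_append, ← vb_zl, ← vb_zl, ← vb_zl] at h1
  rw [← h1]
  abel

theorem a0_eq : vb yxxr0 - vb tr0 = vb a0 := vb_sub (by decide +kernel)

theorem a2_eq : vb yxxh2 - vb th2 = vb a2 := vb_sub (by decide +kernel)

/-- `[r₀, a₀] = 0` -/
theorem r0_a0 : br (vb r0) (vb a0) = 0 :=
  ((sem_vs (w := a0) (by decide +kernel)).aw (w := r0) (by decide +kernel)).eq_zero (by decide +kernel)

/-- `[r₀, a₂] + [h₂, a₀] = 0` -/
theorem r0_a2 : br (vb r0) (vb a2) + br (vb bh2) (vb a0) = 0 :=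
  (((sem_vs (w := a2) (by decide +kernel)).aw (w := r0) (by decide +kernel)).ad3
    ((sem_vs (w := a0) (by decide +kernel)).aw (w := bh2) (by decide +kernel))).eq_zero (by decide +kernel)

/-- `[h₂, a₂] ≠ 0` -/
theorem h2_a2 : br (vb bh2) (vb a2) ≠ 0 :=
  ((sem_vs (w := a2) (by decide +kernel)).aw (w := bh2) (by decide +kernel)).ne_zero (by decide +kernel)

/-- **(N2)** -/
theorem n2 (z : ZMod 3) {r : L3} (hr : r = vb r0 + z • vb bh2)
    (e2 : br (mx (Ph Ax) *ᵥ vb ql) (mx (Ph Ax) *ᵥ (mx (Ph At) *ᵥ (mx (Ph Ay) *ᵥ r)) - mx (Ph Ax ^ 9) *ᵥ vb ql) = 0 →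
      br r (mx (Ph Ay) *ᵥ (mx (Ph Ax) *ᵥ (mx (Ph Ax) *ᵥ r)) - mx (Ph At) *ᵥ r) = 0) : z = 0 := by
  have h1 : br (mx (Ph Ax) *ᵥ vb ql) (mx (Ph Ax) *ᵥ (mx (Ph At) *ᵥ (mx (Ph Ay) *ᵥ r)) - mx (Ph Ax ^ 9) *ᵥ vb ql) = 0 := by
    have e : mx (Ph Ax) *ᵥ vb ql = mx (Ph Ax) *ᵥ (mx (Ph At) *ᵥ (mx (Ph Ay) *ᵥ vb ql)) := by rw [y_q, t_q]
    rw [← xty_u0', e, ← Matrix.mulVec_sub, ← Matrix.mulVec_sub, ← Matrix.mulVec_sub, ← mx_br, ← mx_br, ← mx_br]
    have h2 : r - vb u0 = (vb r0 - vb u0) + z • vb bh2 := by rw [hr]; abel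
    rw [h2, br_add_right, br_smul_right, q_r0u0, q_h2, smul_zero, add_zero, Matrix.mulVec_zero, Matrix.mulVec_zero,
      Matrix.mulVec_zero]
  have h2 := e2 h1
  have h3 : mx (Ph Ay) *ᵥ (mx (Ph Ax) *ᵥ (mx (Ph Ax) *ᵥ r)) - mx (Ph At) *ᵥ r = vb a0 + z • vb a2 := by
    rw [hr]
    simp only [Matrix.mulVec_add, Matrix.mulVec_smul]
    rw [yxx_r0, yxx_h2, t_r0, t_h2, ← a0_eq, ← a2_eq, smul_sub]
    abel
  rw [h3, hr] at h2
  simp only [br_add_left, br_add_right, br_smul_left, br_smul_right] at h2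
  have h4 : br (vb r0) (vb a2) = -br (vb bh2) (vb a0) := eq_neg_of_add_eq_zero_left r0_a2
  rw [r0_a0, h4] at h2
  have h5 : (z * z) • br (vb bh2) (vb a2) = 0 := by
    rw [← h2]
    module
  by_contra hz
  rcases smul_eq_zero.1 h5 with h6 | h6
  · exact hz (mul_self_eq_zero.1 h6)
  · exact h2_a2 h6

/-! ### the base -/

/-- `x¹⁰ q` -/
def x10q : List (ℕ × Bool) := [(187, true), (165, true), (176, true), (171, true), (21, true), (137, false), (154, false),
  (149, false), (155, false), (131, false), (16, true), (144, true), (140, true), (14, false), (133, false), (127, true)]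

open Cfsg.Agent.H74.E83.Code Cfsg.Agent.H74.E83 in
theorem chk10 : Cfsg.Agent.H977.E83.frc V1 (fun V => Cfsg.Agent.H977.E83.frc (wc TX wX (x9 V)) fun A =>
    okF (Cfsg.Agent.H74.E83.Code.row A) 0 (zl x10q)) = true := by decide +kernel

/-- `x¹⁰ q` -/
theorem x10_q : mx (Ph Ax ^ 10) *ᵥ vb ql = vb x10q := by
  have h := chk10
  rw [Cfsg.Agent.H977.E83.frc_eq, Cfsg.Agent.H977.E83.frc_eq] at h
  obtain ⟨w1, f1⟩ := act_x vldM_V1
  obtain ⟨w2, f2⟩ := act_x w1
  obtain ⟨w3, f3⟩ := act_x w2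
  obtain ⟨w4, f4⟩ := act_x w3
  obtain ⟨w5, f5⟩ := act_x w4
  obtain ⟨w6, f6⟩ := act_x w5
  obtain ⟨w7, f7⟩ := act_x w6
  obtain ⟨w8, f8⟩ := act_x w7
  obtain ⟨w9, f9⟩ := act_x w8
  obtain ⟨w10, f10⟩ := act_x w9
  rw [mx_pow, mx_pow, mx_pow, mx_pow, mx_pow, mx_pow, mx_pow, mx_pow, mx_pow, pow_one, ← d0, ← f1, ← f2, ← f3, ← f4, ← f5,
    ← f6, ← f7, ← f8, ← f9, ← f10]
  exact col_of h

/-- **(C)** -/
theorem base : br (vb ql) (br (vb ql) (mx (Ph Ax ^ 10) *ᵥ vb ql)) = 0 := by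
  rw [x10_q]
  exact (((sem_vs (w := x10q) (by decide +kernel)).aw (w := ql) (by decide +kernel)).aw (w := ql)
    (by decide +kernel)).eq_zero (by decide +kernel)

end Cfsg.Agent.H977.E83.Cand
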