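import Cfsg.Agent.H977.E83.N1
import Cfsg.Agent.H977.E83.N2

/-!
# S5925, box K: the candidates (helper977)

`cand` : (B), `base` (in N2) : (C).
-/

set_option autoImplicit false

namespace Cfsg.Agent.H977.E83.Cand

open Matrix Cfsg Cfsg.Lie
open Cfsg.Agent.H788.E83 (Ax Ay At)
open Cfsg.Agent.H64.E83 (mx L3 vec Ph)
open Cfsg.Agent.H738.E83
open Cfsg.Agent.H977.E83 (ql r0 bh1 bh2 bh3 bh4)

/-- **(B)** -/
theorem cand (z1 z2 z3 z4 : ZMod 3) (r : L3)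
    (hr : r = vb r0 + z1 • vb bh1 + z2 • vb bh2 + z3 • vb bh3 + z4 • vb bh4) (e1 : br r (br r (vb ql)) = 0)
    (e2 : br (mx (Ph Ax) *ᵥ vb ql) (mx (Ph Ax) *ᵥ (mx (Ph At) *ᵥ (mx (Ph Ay) *ᵥ r)) - mx (Ph Ax ^ 9) *ᵥ vb ql) = 0 →
      br r (mx (Ph Ay) *ᵥ (mx (Ph Ax) *ᵥ (mx (Ph Ax) *ᵥ r)) - mx (Ph At) *ᵥ r) = 0) : r = vb r0 := by
  obtain ⟨h1, h3, h4⟩ := n1 z1 z2 z3 z4 hr e1
  subst h1 h3 h4
  have hr' : r = vb r0 + z2 • vb bh2 := by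
    rw [hr, zero_smul, zero_smul, zero_smul, add_zero, add_zero, add_zero]
  have h2 := n2 z2 hr' e2
  rw [hr', h2, zero_smul, add_zero]

end Cfsg.Agent.H977.E83.Cand
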