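import Cfsg.Agent.H977.E83.Hvec
import Cfsg.Agent.H738.E83.Sem

/-!
# S5925, box K: further explicit images under `x`, `y`, `t` (helper977)

The vectors are given as signed lists (`vb` of helper738), the letters are `x = Ph Ax`, `y = Ph Ay`, `t = Ph At`.
-/

set_option autoImplicit false
set_option maxRecDepth 100000
set_option exponentiation.threshold 600

namespace Cfsg.Agent.H977.E83

open Matrix Cfsg.Lie
open Cfsg.Agent.H788.E83 (SL5 Lt Ax Ay At wx wy wt ev)
open Cfsg.Agent.H74.E83 Cfsg.Agent.H74.E83.Trit Cfsg.Agent.H74.E83.Code Cfsg.Agent.H74.E83.Elim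
open Cfsg.Agent.H64.E83 (mx L3 er vec Ph eqv vec_eq)
open Cfsg.Agent.H738.E83 (vb)
open Cfsg.Agent.H751.Two.Word (sz pos posOK)

/-- a signed list as a list with integer coefficients -/
def zl (w : List (ℕ × Bool)) : List (ℕ × ℤ) := w.map fun l => (l.1, if l.2 = true then 1 else -1)

theorem vb_zl (w : List (ℕ × Bool)) : vb w = vec (zl w) := rfl

/-- equality of two columns -/
def eqF (f g : ℕ → ℕ) (a b : ℕ) : Bool := (List.range 248).all fun i =>
  Nat.beq (bt (f i) a) (bt (g i) b) && Nat.beq (bt (f i) (256 + a)) (bt (g i) (256 + b))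

theorem bt_inj {w w' a b : ℕ} (h : Nat.beq (bt w a) (bt w' b) = true) : w.testBit a = w'.testBit b := by
  rw [← bt_eq, ← bt_eq, Nat.eq_of_beq_eq_true h]

theorem col_eq_of {A B : ℕ} {a b : Fin 8} (h : eqF (row A) (row B) a.val b.val = true) : col A a = col B b := by
  funext i
  unfold eqF at h
  rw [List.all_eq_true] at h
  have h1 := h _ (List.mem_range.2 (pos_lt' i))
  rw [Bool.and_eq_true] at h1
  rw [col_apply, col_apply]
  unfold val
  rw [bt_inj h1.1, bt_inj h1.2]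

/-! ### data -/

/-- `q` -/
def ql : List (ℕ × Bool) := [(14, true), (127, false), (133, true), (140, false), (165, true), (171, true),
  (176, true), (187, true)]

/-- `u₀` -/
def u0 : List (ℕ × Bool) := [(15, false), (16, false), (21, false), (126, true), (131, true), (137, true), (144, false),
  (145, false), (149, true), (151, false), (154, true), (155, true), (165, true), (171, true), (176, true), (187, true)]

/-- `r₀` -/
def r0 : List (ℕ × Bool) := [(14, false), (15, false), (16, false), (21, false), (126, true), (127, true), (131, true),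
  (133, false), (137, true), (140, true), (144, false), (145, false), (149, true), (151, false), (154, true), (155, true)]

/-- `h₁` -/
def bh1 : List (ℕ × Bool) := lh1.map fun p => (p.1, decide (p.2 = 1))

/-- `h₂` -/
def bh2 : List (ℕ × Bool) := [(18, false), (19, true), (23, false), (25, true), (28, false), (29, true), (159, true),
  (160, true), (161, true), (178, true), (179, true), (181, true), (188, false), (190, true), (192, true), (195, false),
  (196, false), (199, true), (207, false), (208, false), (209, false)]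

/-- `h₃` -/
def bh3 : List (ℕ × Bool) := lh3.map fun p => (p.1, decide (p.2 = 1))

/-- `h₄` -/
def bh4 : List (ℕ × Bool) := lh4.map fun p => (p.1, decide (p.2 = 1))

theorem vec_h1 : vec lh1 = vb bh1 := vec_eq (l' := zl bh1) (by decide +kernel)
theorem vec_h2 : vec lh2 = vb bh2 := vec_eq (l' := zl bh2) (by decide +kernel)
theorem vec_h3 : vec lh3 = vb bh3 := vec_eq (l' := zl bh3) (by decide +kernel)
theorem vec_h4 : vec lh4 = vb bh4 := vec_eq (l' := zl bh4) (by decide +kernel)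

/-- `t r₀` -/
def tr0 : List (ℕ × Bool) := [(14, false), (15, true), (16, true), (21, false), (126, false), (127, true), (131, false),
  (133, false), (137, true), (140, true), (144, true), (145, true), (149, true), (151, true), (154, true), (155, false)]

/-- `t h₂` -/
def th2 : List (ℕ × Bool) := [(18, true), (19, false), (23, false), (25, false), (28, false), (29, false), (159, true),
  (160, false), (161, false), (178, false), (179, false), (181, true), (188, false), (190, false), (192, true),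
  (195, false), (196, true), (199, true), (207, false), (208, true), (209, true)]

/-- `y x x r₀` -/
def yxxr0 : List (ℕ × Bool) := [(15, false), (16, false), (126, true), (131, true), (144, false), (145, false),
  (151, false), (155, true)]

/-- `y x x h₂` -/
def yxxh2 : List (ℕ × Bool) := [(22, true), (26, true), (37, true), (38, false), (156, true), (157, true), (178, true),
  (179, true), (190, true), (196, false), (208, false), (209, false)]

/-- the columns `q`, `u₀`, `r₀`, `h₂` -/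
def V1 : ℕ := putL 0 (zl ql) (putL 1 (zl u0) (putL 2 (zl r0) (putL 3 (zl bh2) 0)))

theorem vldM_V1 : VldM V1 :=
  vldM_putL (by norm_num) _ (vldM_putL (by norm_num) _ (vldM_putL (by norm_num) _ (vldM_putL (by norm_num) _ vldM_zero)))

theorem d0 : col V1 0 = vb ql := col_of (l := zl ql) (by decide +kernel)
theorem d1 : col V1 1 = vb u0 := col_of (l := zl u0) (by decide +kernel)
theorem d2 : col V1 2 = vb r0 := col_of (l := zl r0) (by decide +kernel)
theorem d3 : col V1 3 = vb bh2 := col_of (l := zl bh2) (by decide +kernel)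

theorem chkY : frc V1 (fun V => frc (wc TX wY V) fun Y => okF (row Y) 0 (zl ql)) = true := by decide +kernel

theorem chkT : frc V1 (fun V => frc (wc TX wT V) fun T => okF (row T) 0 (zl ql) && (okF (row T) 2 (zl tr0) &&
    okF (row T) 3 (zl th2))) = true := by decide +kernel

theorem chkYXX : frc V1 (fun V => frc (wc TX wY (wc TX wX (wc TX wX V))) fun T => okF (row T) 2 (zl yxxr0) &&
    okF (row T) 3 (zl yxxh2)) = true := by decide +kernel

/-- `x⁹` on a packed matrix -/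
def x9 (V : ℕ) : ℕ := wc TX wX (wc TX wX (wc TX wX (wc TX wX (wc TX wX (wc TX wX (wc TX wX (wc TX wX (wc TX wX V))))))))

theorem chk9 : frc V1 (fun V => frc (wc TX wX (wc TX wT (wc TX wY V))) fun A => frc (x9 V) fun B =>
    eqF (row A) (row B) 1 0) = true := by decide +kernel

/-- `y q = q` -/
theorem y_q : mx (Ph Ay) *ᵥ vb ql = vb ql := by
  have h := chkY
  rw [frc_eq, frc_eq] at h
  rw [← d0, ← (act_y vldM_V1).2 0, d0]
  exact col_of h

/-- `t q = q`, `t r₀`, `t h₂` -/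
theorem t_all : mx (Ph At) *ᵥ vb ql = vb ql ∧ mx (Ph At) *ᵥ vb r0 = vb tr0 ∧ mx (Ph At) *ᵥ vb bh2 = vb th2 := by
  have h := chkT
  rw [frc_eq, frc_eq, Bool.and_eq_true, Bool.and_eq_true] at h
  refine ⟨?_, ?_, ?_⟩
  · rw [← d0, ← (act_t vldM_V1).2 0, d0]
    exact col_of h.1
  · rw [← d2, ← (act_t vldM_V1).2 2]
    exact col_of h.2.1
  · rw [← d3, ← (act_t vldM_V1).2 3]
    exact col_of h.2.2

theorem t_q : mx (Ph At) *ᵥ vb ql = vb ql := t_all.1
theorem t_r0 : mx (Ph At) *ᵥ vb r0 = vb tr0 := t_all.2.1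
theorem t_h2 : mx (Ph At) *ᵥ vb bh2 = vb th2 := t_all.2.2

/-- `y x x r₀`, `y x x h₂` -/
theorem yxx_all : mx (Ph Ay) *ᵥ (mx (Ph Ax) *ᵥ (mx (Ph Ax) *ᵥ vb r0)) = vb yxxr0 ∧
    mx (Ph Ay) *ᵥ (mx (Ph Ax) *ᵥ (mx (Ph Ax) *ᵥ vb bh2)) = vb yxxh2 := by
  have h := chkYXX
  rw [frc_eq, frc_eq, Bool.and_eq_true] at h
  obtain ⟨v1, e1⟩ := act_x vldM_V1
  obtain ⟨v2, e2⟩ := act_x v1
  obtain ⟨v3, e3⟩ := act_y v2
  constructor
  · rw [← d2, ← e1, ← e2, ← e3]
    exact col_of h.1
  · rw [← d3, ← e1, ← e2, ← e3]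
    exact col_of h.2

theorem yxx_r0 : mx (Ph Ay) *ᵥ (mx (Ph Ax) *ᵥ (mx (Ph Ax) *ᵥ vb r0)) = vb yxxr0 := yxx_all.1
theorem yxx_h2 : mx (Ph Ay) *ᵥ (mx (Ph Ax) *ᵥ (mx (Ph Ax) *ᵥ vb bh2)) = vb yxxh2 := yxx_all.2

/-- `x t y u₀ = x⁹ q` -/
theorem xty_u0 : mx (Ph Ax) *ᵥ (mx (Ph At) *ᵥ (mx (Ph Ay) *ᵥ vb u0)) =
    mx (Ph Ax) *ᵥ (mx (Ph Ax) *ᵥ (mx (Ph Ax) *ᵥ (mx (Ph Ax) *ᵥ (mx (Ph Ax) *ᵥ (mx (Ph Ax) *ᵥ (mx (Ph Ax) *ᵥ
      (mx (Ph Ax) *ᵥ (mx (Ph Ax) *ᵥ vb ql)))))))) := by
  have h := chk9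
  rw [frc_eq, frc_eq, frc_eq] at h
  obtain ⟨v1, e1⟩ := act_y vldM_V1
  obtain ⟨v2, e2⟩ := act_t v1
  obtain ⟨v3, e3⟩ := act_x v2
  obtain ⟨w1, f1⟩ := act_x vldM_V1
  obtain ⟨w2, f2⟩ := act_x w1
  obtain ⟨w3, f3⟩ := act_x w2
  obtain ⟨w4, f4⟩ := act_x w3
  obtain ⟨w5, f5⟩ := act_x w4
  obtain ⟨w6, f6⟩ := act_x w5
  obtain ⟨w7, f7⟩ := act_x w6
  obtain ⟨w8, f8⟩ := act_x w7
  obtain ⟨w9, f9⟩ := act_x w8
  rw [← d1, ← d0, ← e1, ← e2, ← e3, ← f1, ← f2, ← f3, ← f4, ← f5, ← f6, ← f7, ← f8, ← f9]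
  exact col_eq_of h

theorem mx_pow (g : ↥(chevE8.group (ZMod 3))) (n : ℕ) (v : L3) :
    mx (g ^ (n + 1)) *ᵥ v = mx g *ᵥ (mx (g ^ n) *ᵥ v) := by
  rw [pow_succ', Matrix.mulVec_mulVec]; rfl

/-- `x t y u₀ = x⁹ q` -/
theorem xty_u0' : mx (Ph Ax) *ᵥ (mx (Ph At) *ᵥ (mx (Ph Ay) *ᵥ vb u0)) = mx (Ph Ax ^ 9) *ᵥ vb ql := by
  rw [xty_u0, mx_pow, mx_pow, mx_pow, mx_pow, mx_pow, mx_pow, mx_pow, mx_pow, pow_one]

end Cfsg.Agent.H977.E83
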