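import Cfsg.Agent.H977.E83.Wact

/-!
# S5925, box K: `E₊ Y x x t x` kills the two vectors of LINp (helper977)

`x = Ph Ax`, `y = Ph Ay`, `t = Ph At`, `Y = 1 + y + y² + y³ + y⁴`, `E₊ = 1 + x + x³ + x⁴ + x⁵ + x⁹`.
-/

set_option autoImplicit false
set_option maxRecDepth 100000
set_option exponentiation.threshold 600

namespace Cfsg.Agent.H977.E83

open Matrix Cfsg.Lie
open Cfsg.Agent.H788.E83 (SL5 Lt Ax Ay At wx wy wt ev)
open Cfsg.Agent.H74.E83 Cfsg.Agent.H74.E83.Trit Cfsg.Agent.H74.E83.Code Cfsg.Agent.H74.E83.Elim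
open Cfsg.Agent.H64.E83 (mx L3 er vec Ph eqv vec_eq)
open Cfsg.Agent.H738.E83 (vb)
open Cfsg.Agent.H751.Two.Word (sz pos posOK)

/-! ### sums of packed matrices -/

/-- the sum of two packed matrices (248 rows) -/
def addM (V W : ℕ) : ℕ := (List.range 248).foldr (fun i acc => put acc i (tadd (row V i) (row W i))) 0

theorem addM_aux {V W : ℕ} (hV : VldM V) (hW : VldM W) (l : List ℕ) :
    VldM (l.foldr (fun i acc => put acc i (tadd (row V i) (row W i))) 0) ∧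
    ∀ i, row (l.foldr (fun i acc => put acc i (tadd (row V i) (row W i))) 0) i =
      if i ∈ l then tadd (row V i) (row W i) else 0 := by
  induction l with
  | nil => exact ⟨vldM_zero, fun i => by rw [List.foldr_nil, row_zero]; simp⟩
  | cons a l ih =>
    obtain ⟨h1, h2⟩ := ih
    have ha := vld_add (hV a) (hW a)
    rw [List.foldr_cons]
    refine ⟨vldM_put h1 ha, fun i => ?_⟩
    rw [row_put ha.lt, h2]
    by_cases h : i = a
    · subst h; simp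
    · simp [h]

theorem add_spec {V W : ℕ} (hV : VldM V) (hW : VldM W) : VldM (addM V W) ∧ ∀ j, col (addM V W) j = col V j + col W j := by
  refine ⟨(addM_aux hV hW _).1, fun j => ?_⟩
  have hj : j.val < 256 := by have := j.2; omega
  funext i
  rw [Pi.add_apply, col_apply, col_apply, col_apply]
  unfold addM
  rw [(addM_aux hV hW _).2, if_pos (List.mem_range.2 (pos_lt' i)), val_add (hV _) (hW _) hj]

/-! ### data -/

/-- `w₅` -/
def lw5 : List (ℕ × ℤ) :=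
  [(30, 1), (31, 2), (32, 2), (33, 2), (34, 1), (40, 2), (41, 2), (42, 1), (43, 2), (44, 2), (46, 1), (47, 1), (48, 2),
   (49, 1), (50, 1), (51, 2), (56, 1), (57, 2), (59, 2), (61, 1), (200, 1), (201, 1), (203, 1), (210, 1), (212, 1),
   (214, 2), (215, 2), (217, 1), (219, 1), (220, 1), (221, 1), (222, 2)]

/-- `w₆` -/
def lw6 : List (ℕ × ℤ) := [(52, 1), (63, 1), (68, 1), (74, 1)]

/-- the columns `w₅`, `w₆` -/
def V2 : ℕ := putL 0 lw5 (putL 1 lw6 0)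

theorem vldM_V2 : VldM V2 := vldM_putL (by norm_num) _ (vldM_putL (by norm_num) _ vldM_zero)

theorem e0 : col V2 0 = vec lw5 := col_of (by decide +kernel)
theorem e1 : col V2 1 = vec lw6 := col_of (by decide +kernel)

/-- `Y` on packed matrices -/
def yS (V : ℕ) : ℕ := addM V (wc TX wY (addM V (wc TX wY (addM V (wc TX wY (addM V (wc TX wY V)))))))

/-- `E₊` on packed matrices: `1 + x (1 + x² (1 + x (1 + x (1 + x⁴))))` -/
def xS (V : ℕ) : ℕ := addM V (wc TX wX (addM V (wc TX wX (wc TX wX (addM V (wc TX wX (addM V (wc TX wX (addM V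
  (wc TX wX (wc TX wX (wc TX wX (wc TX wX V)))))))))))))

/-- force twice -/
def yS' (V : ℕ) (k : ℕ → Bool) : Bool :=
  frc V fun V => frc (addM V (wc TX wY V)) fun A => frc (addM V (wc TX wY A)) fun A => frc (addM V (wc TX wY A)) fun A =>
    frc (addM V (wc TX wY A)) k

theorem yS'_eq (V : ℕ) (k : ℕ → Bool) : yS' V k = k (yS V) := by
  unfold yS' yS; rw [frc_eq, frc_eq, frc_eq, frc_eq, frc_eq]

/-- force twice -/
def xS' (V : ℕ) (k : ℕ → Bool) : Bool :=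
  frc V fun V => frc (wc TX wX (wc TX wX (wc TX wX (wc TX wX V)))) fun A => frc (addM V A) fun A =>
    frc (addM V (wc TX wX A)) fun A => frc (addM V (wc TX wX A)) fun A => frc (addM V (wc TX wX (wc TX wX A))) fun A =>
      frc (addM V (wc TX wX A)) k

theorem xS'_eq (V : ℕ) (k : ℕ → Bool) : xS' V k = k (xS V) := by
  unfold xS' xS; rw [frc_eq, frc_eq, frc_eq, frc_eq, frc_eq, frc_eq, frc_eq]

theorem chkP : frc V2 (fun V => frc (wc TX wX (wc TX wX (wc TX wT (wc TX wX V)))) fun A => yS' A fun B => xS' B fun C =>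
    okF (row C) 0 [] && okF (row C) 1 []) = true := by decide +kernel

/-! ### meaning -/

theorem mx_p (g : ↥(chevE8.group (ZMod 3))) (n : ℕ) (v : L3) :
    mx (g ^ (n + 1)) *ᵥ v = mx g *ᵥ (mx (g ^ n) *ᵥ v) := mx_pow g n v

theorem mx_p1 (g : ↥(chevE8.group (ZMod 3))) (v : L3) : mx (g ^ 1) *ᵥ v = mx g *ᵥ v := by rw [pow_one]

/-- `Y v` -/
noncomputable def sY (v : L3) : L3 := v + mx (Ph Ay) *ᵥ v + mx (Ph Ay ^ 2) *ᵥ v + mx (Ph Ay ^ 3) *ᵥ v + mx (Ph Ay ^ 4) *ᵥ v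

/-- `E₊ v` -/
noncomputable def sE (v : L3) : L3 := v + mx (Ph Ax) *ᵥ v + mx (Ph Ax ^ 3) *ᵥ v + mx (Ph Ax ^ 4) *ᵥ v + mx (Ph Ax ^ 5) *ᵥ v +
  mx (Ph Ax ^ 9) *ᵥ v

theorem yS_spec {V : ℕ} (hV : VldM V) : VldM (yS V) ∧ ∀ j, col (yS V) j = sY (col V j) := by
  obtain ⟨a1, b1⟩ := act_y hV
  obtain ⟨a2, b2⟩ := add_spec hV a1
  obtain ⟨a3, b3⟩ := act_y a2
  obtain ⟨a4, b4⟩ := add_spec hV a3
  obtain ⟨a5, b5⟩ := act_y a4
  obtain ⟨a6, b6⟩ := add_spec hV a5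
  obtain ⟨a7, b7⟩ := act_y a6
  obtain ⟨a8, b8⟩ := add_spec hV a7
  refine ⟨a8, fun j => ?_⟩
  unfold yS sY
  rw [b8, b7, b6, b5, b4, b3, b2, b1]
  simp only [mx_p _ 3, mx_p _ 2, mx_p _ 1, mx_p1, Matrix.mulVec_add]
  abel

theorem xS_spec {V : ℕ} (hV : VldM V) : VldM (xS V) ∧ ∀ j, col (xS V) j = sE (col V j) := by
  obtain ⟨a1, b1⟩ := act_x hV
  obtain ⟨a2, b2⟩ := act_x a1
  obtain ⟨a3, b3⟩ := act_x a2
  obtain ⟨a4, b4⟩ := act_x a3
  obtain ⟨a5, b5⟩ := add_spec hV a4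
  obtain ⟨a6, b6⟩ := act_x a5
  obtain ⟨a7, b7⟩ := add_spec hV a6
  obtain ⟨a8, b8⟩ := act_x a7
  obtain ⟨a9, b9⟩ := add_spec hV a8
  obtain ⟨a10, b10⟩ := act_x a9
  obtain ⟨a11, b11⟩ := act_x a10
  obtain ⟨a12, b12⟩ := add_spec hV a11
  obtain ⟨a13, b13⟩ := act_x a12
  obtain ⟨a14, b14⟩ := add_spec hV a13
  refine ⟨a14, fun j => ?_⟩
  unfold xS sE
  rw [b14, b13, b12, b11, b10, b9, b8, b7, b6, b5, b4, b3, b2, b1]
  simp only [mx_p _ 8, mx_p _ 7, mx_p _ 6, mx_p _ 5, mx_p _ 4, mx_p _ 3, mx_p _ 2, mx_p _ 1, mx_p1, Matrix.mulVec_add]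
  abel

theorem lp_both : sE (sY (mx (Ph Ax) *ᵥ (mx (Ph Ax) *ᵥ (mx (Ph At) *ᵥ (mx (Ph Ax) *ᵥ vec lw5))))) = 0 ∧
    sE (sY (mx (Ph Ax) *ᵥ (mx (Ph Ax) *ᵥ (mx (Ph At) *ᵥ (mx (Ph Ax) *ᵥ vec lw6))))) = 0 := by
  have h := chkP
  rw [frc_eq, frc_eq, yS'_eq, xS'_eq, Bool.and_eq_true] at h
  obtain ⟨a1, b1⟩ := act_x vldM_V2
  obtain ⟨a2, b2⟩ := act_t a1
  obtain ⟨a3, b3⟩ := act_x a2
  obtain ⟨a4, b4⟩ := act_x a3
  obtain ⟨a5, b5⟩ := yS_spec a4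
  obtain ⟨a6, b6⟩ := xS_spec a5
  constructor
  · rw [← e0, ← b1, ← b2, ← b3, ← b4, ← b5, ← b6]
    exact col_of (l := []) h.1
  · rw [← e1, ← b1, ← b2, ← b3, ← b4, ← b5, ← b6]
    exact col_of (l := []) h.2

/-- `E₊ Y x x t x w₅ = 0` -/
theorem lp5 : sE (sY (mx (Ph Ax) *ᵥ (mx (Ph Ax) *ᵥ (mx (Ph At) *ᵥ (mx (Ph Ax) *ᵥ vec lw5))))) = 0 := lp_both.1

/-- `E₊ Y x x t x w₆ = 0` -/
theorem lp6 : sE (sY (mx (Ph Ax) *ᵥ (mx (Ph Ax) *ᵥ (mx (Ph At) *ᵥ (mx (Ph Ax) *ᵥ vec lw6))))) = 0 := lp_both.2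

end Cfsg.Agent.H977.E83
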