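import Cfsg.Agent.H64.E83.Orb
import Cfsg.Agent.H114.E8L.Stmt
import Cfsg.Agent.H332.E83.Card
import Cfsg.Agent.H837.E83.NM11Fin

/-!
# S5925: the final assembly (helper977)

`asm` : the statement of S5925 from the boxes CONJ, E, M, FIXV, PGL, K (structure `Hyp`).
-/

set_option autoImplicit false
set_option maxRecDepth 10000

namespace Cfsg.Agent.H977.E83.Asm

open Matrix Cfsg Cfsg.Lie
open Cfsg.Agent.H64.E83 (E L3 Ph ac mx ac_one ac_mul ac_inv_ac ac_ac_inv ac_add ac_smul stabW mem_stabW U4 U1 dvd_of_stab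
  ne_top4 ne_top1 ne_top41 Ph_stab4 Ph_stab1 Ph_stab41)
open Cfsg.Agent.H788.E83 (SL5 As Ax Ay At)
open Cfsg.Agent.H114.E8L (BE BM BP NF x0 y2)
open Cfsg.Agent.H837.E83.NM11 (eqP4)

/-- the relations of helper791 -/
abbrev Rl (x y t : E) : Prop := Cfsg.Agent.H791.E8L.Rel x y t

/-- the boxes -/
structure Hyp : Prop where
  conj : ∀ x y t : E, Rl x y t → x ≠ 1 → y ≠ 1 → (¬ ∃ g : E, g * x * g⁻¹ = x0 ∧ g * y * g⁻¹ = y2) →
    ∃ g : E, g * x * g⁻¹ = Ph Ax ∧ g * y * g⁻¹ = Ph Ay ∧ g * t * g⁻¹ = Ph At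
  be : BE
  bm : BM eqP4
  fixv : ∀ (H : Subgroup E) (W : Submodule (ZMod 3) L3) (x : E), IsCoatom H → W ≠ ⊥ → x ^ 11 = 1 → x ≠ 1 →
    (∀ v ∈ W, ac x v = v) → H ≤ stabW W → 121 ∣ Nat.card H
  pgl : ∀ h : E, h * Ph Ax * h⁻¹ = (Ph Ax)⁻¹ → h * h = 1 → h * Ph Ay = Ph Ay * h → h * Ph At = Ph At * h →
    h ∈ stabW (U4 ⊔ U1)
  bk : ∀ f : E, (∀ w w' : List (Fin 4), eqP4 w w' = true →
    (w.map ![Ph Ax, Ph Ay, Ph At, f]).prod = (w'.map ![Ph Ax, Ph Ay, Ph At, f]).prod) → f ∈ stabW U1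

/-! ### fixed spaces -/

/-- the common fixed space -/
def fx (X : Set E) : Submodule (ZMod 3) L3 where
  carrier := {v | ∀ g ∈ X, ac g v = v}
  zero_mem' := fun g _ => Matrix.mulVec_zero _
  add_mem' := fun {a b} ha hb g hg => by rw [ac_add, ha g hg, hb g hg]
  smul_mem' := fun c v hv g hg => by rw [ac_smul, hv g hg]

theorem mem_fx {X : Set E} {v : L3} : v ∈ fx X ↔ ∀ g ∈ X, ac g v = v := Iff.rfl

theorem fx_self {X : Set E} {g : E} (hg : g ∈ X) : g ∈ stabW (fx X) := by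
  intro v hv
  rw [hv g hg]
  exact hv

theorem fx_closure {X : Set E} {v : L3} (hv : v ∈ fx X) {g : E} (hg : g ∈ Subgroup.closure X) : ac g v = v := by
  induction hg using Subgroup.closure_induction with
  | mem g hg => exact hv g hg
  | one => exact ac_one v
  | mul a b _ _ ha hb => rw [ac_mul, hb, ha]
  | inv a _ ha =>
    have h := ac_inv_ac a v
    rwa [ha] at h

theorem fx_norm {X : Set E} {h : E} (hX : ∀ g ∈ X, ∃ g' ∈ Subgroup.closure X, g * h = h * g') : h ∈ stabW (fx X) := by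
  intro v hv g hg
  obtain ⟨g', hg', e⟩ := hX g hg
  rw [← ac_mul, e, ac_mul, fx_closure hv hg']

/-! ### conjugate subgroups -/

section gen

variable {G : Type*} [Group G]

theorem coatom_map (g : G) {H : Subgroup G} (hH : IsCoatom H) : IsCoatom (H.map (MulAut.conj g).toMonoidHom) := by
  have h := ((MulAut.conj g : G ≃* G).mapSubgroup).isCoatom_iff H
  exact h.2 hH

theorem card_map (g : G) (H : Subgroup G) : Nat.card ↥(H.map (MulAut.conj g).toMonoidHom) = Nat.card ↥H :=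
  (Nat.card_congr (H.equivMapOfInjective _ (MulAut.conj g).injective).toEquiv).symm

theorem map_cl (g : G) {H : Subgroup G} {X : Set G} (h : Subgroup.closure X = H) :
    H.map (MulAut.conj g).toMonoidHom = Subgroup.closure ((fun a : G => g * a * g⁻¹) '' X) := by
  rw [← h, MonoidHom.map_closure]
  rfl

/-- the data of box N in the ambient group -/
theorem psl_sub {F : Type*} [Field F] [Fintype F] [Finite G] (hF : Fintype.card F = 11) (H : Subgroup G)
    (e : Nonempty (↥(Cfsg.generalizedFittingSubgroup ↥H) ≃* Matrix.ProjectiveSpecialLinearGroup (Fin 2) F)) :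
    ∃ x y t : G, Cfsg.Agent.H791.E8L.Rel x y t ∧ x ≠ 1 ∧ y ≠ 1 ∧ (Subgroup.closure {x, y, t} = H ∨
      ∃ h : G, h * h = 1 ∧ h * x * h⁻¹ = x⁻¹ ∧ h * y = y * h ∧ h * t = t * h ∧ Subgroup.closure {x, y, t, h} = H) := by
  obtain ⟨x, y, t, hR, hcl⟩ := Cfsg.Agent.H828.E83.psl hF e
  have htt : (t : G) * t = 1 := congrArg Subtype.val hR.tt
  refine ⟨x, y, t, ?_, fun h => hR.x1 (Subtype.ext h), fun h => hR.y1 (Subtype.ext h), ?_⟩
  · exact
    { x11 := congrArg Subtype.val hR.x11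
      y5 := congrArg Subtype.val hR.y5
      t2 := htt
      xt := by
        have h : (x : G) * t * (x * t) * (x * t) = 1 := congrArg Subtype.val hR.xt
        rw [pow_succ, pow_succ, pow_one]
        exact h
      yx := congrArg Subtype.val hR.yx
      ty := by
        have h2 : (t : G)⁻¹ = t := inv_eq_of_mul_eq_one_right htt
        have h3 : (t : G) * y * (t : G)⁻¹ = (y : G)⁻¹ := congrArg Subtype.val hR.ty
        rwa [h2] at h3 }
  · rcases hcl with hcl | ⟨h, -, hh, hx, hy, ht, hcl⟩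
    · left
      have h1 := congrArg (Subgroup.map H.subtype) hcl
      rw [MonoidHom.map_closure, Set.image_insert_eq, Set.image_pair, ← MonoidHom.range_eq_map,
        Subgroup.range_subtype] at h1
      exact h1
    · right
      refine ⟨h, congrArg Subtype.val hh, congrArg Subtype.val hx, congrArg Subtype.val hy, congrArg Subtype.val ht, ?_⟩
      have h1 := congrArg (Subgroup.map H.subtype) hcl
      rw [MonoidHom.map_closure, Set.image_insert_eq, Set.image_insert_eq, Set.image_pair, ← MonoidHom.range_eq_map,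
        Subgroup.range_subtype] at h1
      exact h1

theorem word_map {A B : Type*} [Group A] [Group B] (φ : A →* B) (x y t f : A) (w : List (Fin 4)) :
    φ (w.map ![x, y, t, f]).prod = (w.map ![φ x, φ y, φ t, φ f]).prod := by
  rw [map_list_prod, List.map_map]
  congr 1
  refine List.map_congr_left fun i _ => ?_
  fin_cases i <;> rfl

/-- the data of box N3 -/
theorem m11_sub [Finite G] (H : Subgroup G) (e : Cfsg.Spor.IsoM11 ↥(Cfsg.generalizedFittingSubgroup ↥H)) :
    ∃ x y t f : G, Cfsg.Agent.H791.E8L.Rel x y t ∧ x ≠ 1 ∧ y ≠ 1 ∧ Subgroup.closure {x, y, t, f} = H ∧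
      ∀ g : G, ∀ w w' : List (Fin 4), eqP4 w w' = true →
        (w.map ![g * x * g⁻¹, g * y * g⁻¹, g * t * g⁻¹, g * f * g⁻¹]).prod =
          (w'.map ![g * x * g⁻¹, g * y * g⁻¹, g * t * g⁻¹, g * f * g⁻¹]).prod := by
  obtain ⟨x, y, t, f, hcl, -, hw⟩ := Cfsg.Agent.H837.E83.NM11.main_sub4 H e
  refine ⟨x, y, t, f, ?_, ?_, ?_, hcl, ?_⟩
  · exact
    { x11 := by
        simpa [pow_succ, mul_assoc] using (hw [0, 0, 0, 0, 0, 0, 0, 0, 0, 0, 0] []).1 (by decide +kernel)
      y5 := by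
        simpa [pow_succ, mul_assoc] using (hw [1, 1, 1, 1, 1] []).1 (by decide +kernel)
      t2 := by
        simpa [pow_succ, mul_assoc] using (hw [2, 2] []).1 (by decide +kernel)
      xt := by
        simpa [pow_succ, mul_assoc] using (hw [0, 2, 0, 2, 0, 2] []).1 (by decide +kernel)
      yx := by
        have h : y * x = x ^ 3 * y := by
          simpa [pow_succ, mul_assoc] using (hw [1, 0] [0, 0, 0, 1]).1 (by decide +kernel)
        rw [h, mul_inv_cancel_right]
      ty := by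
        have h : t * y * t * y = 1 := by
          simpa [pow_succ, mul_assoc] using (hw [2, 1, 2, 1] []).1 (by decide +kernel)
        exact eq_inv_of_mul_eq_one_left h }
  · intro h
    have h1 := (hw [0] []).2 (by simpa using h)
    exact absurd h1 (by decide +kernel)
  · intro h
    have h1 := (hw [1] []).2 (by simpa using h)
    exact absurd h1 (by decide +kernel)
  · intro g w w' h
    have h1 := congrArg (MulAut.conj g).toMonoidHom ((hw w w').1 h)
    rw [word_map, word_map] at h1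
    exact h1

theorem rel_conj {x y t : G} (h : Cfsg.Agent.H791.E8L.Rel x y t) (g : G) :
    Cfsg.Agent.H791.E8L.Rel (g * x * g⁻¹) (g * y * g⁻¹) (g * t * g⁻¹) := h.map (MulAut.conj g).toMonoidHom

theorem mem_pgl {g h x y t : G} (hh : h * h = 1) (hx : h * x * h⁻¹ = x⁻¹) (hy : h * y = y * h) (ht : h * t = t * h) :
    g * h * g⁻¹ * (g * x * g⁻¹) * (g * h * g⁻¹)⁻¹ = (g * x * g⁻¹)⁻¹ ∧ g * h * g⁻¹ * (g * h * g⁻¹) = 1 ∧
      g * h * g⁻¹ * (g * y * g⁻¹) = g * y * g⁻¹ * (g * h * g⁻¹) ∧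
      g * h * g⁻¹ * (g * t * g⁻¹) = g * t * g⁻¹ * (g * h * g⁻¹) := by
  refine ⟨?_, ?_, ?_, ?_⟩
  · calc g * h * g⁻¹ * (g * x * g⁻¹) * (g * h * g⁻¹)⁻¹ = g * (h * x * h⁻¹) * g⁻¹ := by group
      _ = (g * x * g⁻¹)⁻¹ := by rw [hx]; group
  · calc g * h * g⁻¹ * (g * h * g⁻¹) = g * (h * h) * g⁻¹ := by group
      _ = 1 := by rw [hh]; group
  · calc g * h * g⁻¹ * (g * y * g⁻¹) = g * (h * y) * g⁻¹ := by group
      _ = g * y * g⁻¹ * (g * h * g⁻¹) := by rw [hy]; group
  · calc g * h * g⁻¹ * (g * t * g⁻¹) = g * (h * t) * g⁻¹ := by group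
      _ = g * t * g⁻¹ * (g * h * g⁻¹) := by rw [ht]; group

end gen

/-- the inverse image of a fixed vector -/
theorem conj_fix {g a : E} {v : L3} (h : ac (g * a * g⁻¹) v = v) : ac a (ac g⁻¹ v) = ac g⁻¹ v := by
  have h1 := congrArg (ac g⁻¹) h
  have h2 : g⁻¹ * (g * a * g⁻¹) = a * g⁻¹ := by group
  rwa [← ac_mul, h2, ac_mul] at h1

theorem ac_ne {g : E} {v : L3} (h : v ≠ 0) : ac g v ≠ 0 := by
  intro h1
  apply h
  rw [← ac_inv_ac g v, h1]
  exact Matrix.mulVec_zero _

/-! ### the case `F*(H) ≅ L₂(11)` -/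

theorem psl_case (hyp : Hyp) {F : Type*} [Field F] [Fintype F] (hF : Fintype.card F = 11) (H : Subgroup E)
    (e : Nonempty (↥(Cfsg.generalizedFittingSubgroup ↥H) ≃* Matrix.ProjectiveSpecialLinearGroup (Fin 2) F))
    (hH : IsCoatom H) : False := by
  apply Cfsg.Agent.H332.E83.card_psl hF e
  obtain ⟨x, y, t, hR, hx1, hy1, hcl⟩ := psl_sub hF H e
  by_cases hc : ∃ g : E, g * x * g⁻¹ = x0 ∧ g * y * g⁻¹ = y2
  · obtain ⟨g, g1, g2⟩ := hc
    have hR2 := rel_conj hR g
    rw [g1, g2] at hR2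
    have hn := hyp.be _ hR2
    unfold NF at hn
    push Not at hn
    obtain ⟨v, v1, v2, v3, v0⟩ := hn
    obtain ⟨X, hX⟩ : ∃ X : Set E, X = {x, y, t} := ⟨_, rfl⟩
    have hxX : x ∈ X := by rw [hX]; simp
    have hyX : y ∈ X := by rw [hX]; simp
    have htX : t ∈ X := by rw [hX]; simp
    refine hyp.fixv H (fx X) x hH ?_ hR.x11 hx1 (fun v hv => hv _ hxX) ?_
    · intro hb
      have hm : ac g⁻¹ v ∈ fx X := by
        intro a ha
        rw [hX] at ha
        rcases ha with rfl | rfl | rfl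
        · exact conj_fix (by rw [g1]; exact v1)
        · exact conj_fix (by rw [g2]; exact v2)
        · exact conj_fix v3
      rw [hb, Submodule.mem_bot] at hm
      exact ac_ne v0 hm
    · rcases hcl with hcl | ⟨h, hh, hx, hy, ht, hcl⟩
      · rw [← hcl, ← hX, Subgroup.closure_le]
        exact fun a ha => fx_self ha
      · rw [← hcl, Subgroup.closure_le]
        rintro a (rfl | rfl | rfl | rfl)
        · exact fx_self hxX
        · exact fx_self hyX
        · exact fx_self htX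
        · refine fx_norm fun b hb => ?_
          rw [hX] at hb
          rcases hb with rfl | rfl | rfl
          · refine ⟨b⁻¹, Subgroup.inv_mem _ (Subgroup.subset_closure hxX), ?_⟩
            have e1 : b = (a * b * a⁻¹)⁻¹ := by rw [hx, inv_inv]
            calc b * a = (a * b * a⁻¹)⁻¹ * a := by rw [← e1]
              _ = a * b⁻¹ := by group
          · exact ⟨_, Subgroup.subset_closure hyX, hy.symm⟩
          · exact ⟨_, Subgroup.subset_closure htX, ht.symm⟩
  · obtain ⟨g, g1, g2, g3⟩ := hyp.conj _ _ _ hR hx1 hy1 hc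
    rw [← card_map g H]
    rcases hcl with hcl | ⟨h, hh, hx, hy, ht, hcl⟩
    · refine dvd_of_stab (coatom_map g hH) (W := U4) Ph_stab4 ne_top4 ?_
      rw [map_cl g hcl, Subgroup.closure_le]
      rintro _ ⟨a, ha, rfl⟩
      rcases ha with rfl | rfl | rfl
      · show g * _ * g⁻¹ ∈ stabW U4
        rw [g1]; exact Ph_stab4 _
      · show g * _ * g⁻¹ ∈ stabW U4
        rw [g2]; exact Ph_stab4 _
      · show g * _ * g⁻¹ ∈ stabW U4
        rw [g3]; exact Ph_stab4 _
    · refine dvd_of_stab (coatom_map g hH) (W := U4 ⊔ U1) Ph_stab41 ne_top41 ?_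
      obtain ⟨p1, p2, p3, p4⟩ := mem_pgl (g := g) hh hx hy ht
      rw [g1] at p1
      rw [g2] at p3
      rw [g3] at p4
      rw [map_cl g hcl, Subgroup.closure_le]
      rintro _ ⟨a, ha, rfl⟩
      rcases ha with rfl | rfl | rfl | rfl
      · show g * _ * g⁻¹ ∈ stabW (U4 ⊔ U1)
        rw [g1]; exact Ph_stab41 _
      · show g * _ * g⁻¹ ∈ stabW (U4 ⊔ U1)
        rw [g2]; exact Ph_stab41 _
      · show g * _ * g⁻¹ ∈ stabW (U4 ⊔ U1)
        rw [g3]; exact Ph_stab41 _
      · exact hyp.pgl _ p1 p2 p3 p4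

/-! ### the case `F*(H) ≅ M₁₁` -/

theorem m11_case (hyp : Hyp) (H : Subgroup E) (e : Cfsg.Spor.IsoM11 ↥(Cfsg.generalizedFittingSubgroup ↥H))
    (hH : IsCoatom H) : False := by
  apply Cfsg.Agent.H332.E83.card_m11 e
  obtain ⟨x, y, t, f, hR, hx1, hy1, hcl, hwg⟩ := m11_sub H e
  by_cases hc : ∃ g : E, g * x * g⁻¹ = x0 ∧ g * y * g⁻¹ = y2
  · obtain ⟨g, g1, g2⟩ := hc
    have hR2 := rel_conj hR g
    have hw2 := hwg g
    rw [g1, g2] at hR2 hw2
    obtain ⟨v, v1, v2, v3, v4, v0⟩ : ∃ v : L3, ac x0 v = v ∧ ac y2 v = v ∧ ac (g * t * g⁻¹) v = v ∧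
        ac (g * f * g⁻¹) v = v ∧ v ≠ 0 := by
      by_contra hn
      push Not at hn
      exact hyp.bm _ (g * f * g⁻¹) hR2 hw2 hn
    obtain ⟨X, hX⟩ : ∃ X : Set E, X = {x, y, t, f} := ⟨_, rfl⟩
    have hxX : x ∈ X := by rw [hX]; simp
    refine hyp.fixv H (fx X) x hH ?_ hR.x11 hx1 (fun v hv => hv _ hxX) ?_
    · intro hb
      have hm : ac g⁻¹ v ∈ fx X := by
        intro a ha
        rw [hX] at ha
        rcases ha with rfl | rfl | rfl | rfl
        · exact conj_fix (by rw [g1]; exact v1)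
        · exact conj_fix (by rw [g2]; exact v2)
        · exact conj_fix v3
        · exact conj_fix v4
      rw [hb, Submodule.mem_bot] at hm
      exact ac_ne v0 hm
    · rw [← hcl, ← hX, Subgroup.closure_le]
      exact fun a ha => fx_self ha
  · obtain ⟨g, g1, g2, g3⟩ := hyp.conj _ _ _ hR hx1 hy1 hc
    rw [← card_map g H]
    refine dvd_of_stab (coatom_map g hH) (W := U1) Ph_stab1 ne_top1 ?_
    have hw2 := hwg g
    rw [g1, g2, g3] at hw2
    rw [map_cl g hcl, Subgroup.closure_le]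
    rintro _ ⟨a, ha, rfl⟩
    rcases ha with rfl | rfl | rfl | rfl
    · show g * _ * g⁻¹ ∈ stabW U1
      rw [g1]; exact Ph_stab1 _
    · show g * _ * g⁻¹ ∈ stabW U1
      rw [g2]; exact Ph_stab1 _
    · show g * _ * g⁻¹ ∈ stabW U1
      rw [g3]; exact Ph_stab1 _
    · exact hyp.bk _ hw2

/-- **S5925 from the boxes** -/
theorem asm (hyp : Hyp) {F : Type*} [Field F] [Fintype F] (hF : Fintype.card F = 11)
    (H : Subgroup ↥(Cfsg.Lie.chevE8.group (ZMod 3)))
    (hH : Nonempty (↥(Cfsg.generalizedFittingSubgroup ↥H) ≃* Matrix.ProjectiveSpecialLinearGroup (Fin 2) F) ∨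
      Cfsg.Spor.IsoM11 ↥(Cfsg.generalizedFittingSubgroup ↥H)) : ¬ IsCoatom H := by
  intro h
  rcases hH with e | e
  · exact psl_case hyp hF H e h
  · exact m11_case hyp H e h

end Cfsg.Agent.H977.E83.Asm
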