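import Cfsg.Agent.H977.E83.Wact

/-!
# S5925, box K: the elimination of the candidates, first part (helper977)

`n1` : `r = r₀ + z₁ h₁ + z₂ h₂ + z₃ h₃ + z₄ h₄` with `[r, [r, q]] = 0` has `z₁ = z₃ = z₄ = 0`.
-/

set_option autoImplicit false
set_option maxRecDepth 100000
set_option exponentiation.threshold 600

namespace Cfsg.Agent.H977.E83.Cand

open Matrix Cfsg Cfsg.Lie
open Cfsg.Agent.ChevalleyStructure.JacTab Cfsg.Agent.ChevalleyStructure.JacMain
  Cfsg.Agent.ChevalleyStructure.JacDataE8 Cfsg.Agent.ChevalleyStructure.JacBridge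
open Cfsg.Agent.H788.E83 (SL5 Lt Ax Ay At)
open Cfsg.Agent.H64.E83 (mx L3 er vec Ph)
open Cfsg.Agent.H738.E83
open Cfsg.Agent.H977.E83 (ql u0 r0 bh1 bh2 bh3 bh4 tr0 th2 yxxr0 yxxh2 y_q t_q xty_u0' t_r0 t_h2 yxx_r0 yxx_h2)

/-! ### symbolic columns -/

/-- the state of `v j • vb w` -/
def vsj (j : ℕ) (w : List (ℕ × Bool)) : St :=
  List.rec (motive := fun _ => St) st0
    (fun l _ ih => ad3 (pt (Bool.rec (motive := fun _ => St) (0, Nat.shiftLeft 1 j) (Nat.shiftLeft 1 j, 0) l.2) l.1) ih) w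

theorem vsj_cons (j : ℕ) (l : ℕ × Bool) (w : List (ℕ × Bool)) :
    vsj j (l :: w) = ad3 (pt (if l.2 = true then (1 <<< j, 0) else Cfsg.Agent.H738.E83.ng (1 <<< j, 0)) l.1) (vsj j w) := by
  obtain ⟨r, c⟩ := l
  cases c <;> rfl

theorem fv_one {j : ℕ} (hj : j < 248) (v : ℕ → ZMod 3) : fv (1 <<< j, 0) v = v j := by
  unfold fv
  rw [Finset.sum_eq_single j]
  · rw [vl_one, if_pos rfl, one_mul]
  · intro i _ hi
    rw [vl_one, if_neg hi, zero_mul]
  · intro h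
    exact absurd (Finset.mem_range.2 hj) h

theorem sem_ptj {r j : ℕ} (hr : r < 240) (hj : j < 248) (v : ℕ → ZMod 3) : Sem (pt (1 <<< j, 0) r) v (v j • er r) := by
  refine ⟨(pr_one j).pt r, fun x => ?_⟩
  rw [cv_pt (fun i hi => by rw [vl_one, if_neg (by omega)]), fv_one hj, Pi.smul_apply, smul_eq_mul]
  rcases x with i | s
  · show _ = v j * (0 : ZMod 3)
    have hk : ky (Sum.inl i) = chevE8.nroots + i.val := rfl
    rw [hk, nr, if_neg (by omega), mul_zero]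
  · show _ = v j * (if s.val = r then (1 : ZMod 3) else 0)
    have hk : ky (Sum.inr s) = s.val := rfl
    rw [hk]
    by_cases h : s.val = r
    · rw [if_pos h, if_pos h, mul_one]
    · rw [if_neg h, if_neg h, mul_zero]

theorem ng_pt (f : St) (k : ℕ) : Cfsg.Agent.H738.E83.ng (pt f k) = pt (Cfsg.Agent.H738.E83.ng f) k := by
  obtain ⟨a, b⟩ := f
  show Cfsg.Agent.H738.E83.ng (pt (a, b) k) = pt (b, a) k
  rw [pt_eq, pt_eq]; rfl

theorem sem_vsj {j : ℕ} (hj : j < 248) {w : List (ℕ × Bool)} (hw : okw w = true) (v : ℕ → ZMod 3) :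
    Sem (vsj j w) v (v j • vb w) := by
  induction w with
  | nil =>
    have : vb [] = 0 := rfl
    rw [this, smul_zero]
    exact sem_zero v
  | cons l w ih =>
    unfold okw at hw
    rw [List.all_cons, Bool.and_eq_true] at hw
    have hr : l.1 < 240 := Nat.le_of_ble_eq_true hw.1
    have ih' := ih hw.2
    rw [vsj_cons, vb_cons, smul_add]
    refine Sem.ad3 ?_ ih'
    by_cases hl : l.2 = true
    · rw [if_pos hl, if_pos hl]; exact sem_ptj hr hj v
    · rw [if_neg hl, if_neg hl, ← ng_pt, smul_neg]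
      exact (sem_ptj hr hj v).ng

/-! ### the polynomial condition -/

/-- the lists `r₀`, `h₁`, …, `h₄` -/
def hl : ℕ → List (ℕ × Bool)
  | 0 => r0
  | 1 => bh1
  | 2 => bh2
  | 3 => bh3
  | _ => bh4

theorem hl_ok : ∀ i : Fin 5, okw (hl i.val) = true := by decide +kernel

/-- the coefficients -/
def vv (z1 z2 z3 z4 : ZMod 3) : ℕ → ZMod 3
  | 0 => 1
  | 1 => z1
  | 2 => z2
  | 3 => z3
  | 4 => z4
  | _ => 0

/-- `∑ v i • h_i` -/
noncomputable def rr (v : ℕ → ZMod 3) : L3 :=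
  v 0 • vb (hl 0) + (v 1 • vb (hl 1) + (v 2 • vb (hl 2) + (v 3 • vb (hl 3) + v 4 • vb (hl 4))))

/-- the state of `[r, q]` -/
def S1 : St :=
  ad3 (aw rows (hl 0) (vsj 0 ql)) (ad3 (aw rows (hl 1) (vsj 1 ql)) (ad3 (aw rows (hl 2) (vsj 2 ql))
    (ad3 (aw rows (hl 3) (vsj 3 ql)) (aw rows (hl 4) (vsj 4 ql)))))

theorem okq : okw ql = true := by decide +kernel

theorem aw_s {S : St} {v : ℕ → ZMod 3} {u : L3} (h : Sem S v u) (i : Fin 5) :
    Sem (aw rows (hl i.val) S) v (br (vb (hl i.val)) u) := h.aw (hl_ok i)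

theorem sem_S1 (v : ℕ → ZMod 3) : Sem S1 v (br (rr v) (vb ql)) := by
  have e : ∀ i : ℕ, br (v i • vb (hl i)) (vb ql) = br (vb (hl i)) (v i • vb ql) := fun i => by
    rw [br_smul_left, br_smul_right]
  unfold rr
  rw [br_add_left, br_add_left, br_add_left, br_add_left, e, e, e, e, e]
  exact (aw_s (sem_vsj (by norm_num) okq v) 0).ad3 ((aw_s (sem_vsj (by norm_num) okq v) 1).ad3
    ((aw_s (sem_vsj (by norm_num) okq v) 2).ad3 ((aw_s (sem_vsj (by norm_num) okq v) 3).ad3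
      (aw_s (sem_vsj (by norm_num) okq v) 4))))

/-- the trit as a natural number -/
def tri (S : St) (b : ℕ) : ℕ := bif Nat.testBit S.1 b then 1 else bif Nat.testBit S.2 b then 2 else 0

theorem vl_tri {S : St} (hS : Pr S) (b : ℕ) : vl S b = (tri S b : ZMod 3) := by
  have h := hS b
  unfold vl tri bt
  revert h
  cases S.1.testBit b <;> cases S.2.testBit b <;> decide

/-- a row evaluated at `z` -/
def rv (S : St) (k : ℕ) (z : ℕ → ℕ) : ℕ :=
  z 0 * tri S (248 * k) + (z 1 * tri S (248 * k + 1) + (z 2 * tri S (248 * k + 2) + (z 3 * tri S (248 * k + 3) +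
    z 4 * tri S (248 * k + 4))))

theorem rv_eq {S : St} (hS : Pr S) (k : ℕ) (z : ℕ → ℕ) {v : ℕ → ZMod 3} (hz : ∀ i < 5, (z i : ZMod 3) = v i)
    (hv : ∀ i, 5 ≤ i → v i = 0) : cv S v k = (rv S k z : ZMod 3) := by
  unfold cv rv
  rw [← Finset.sum_subset (s₁ := Finset.range 5) (s₂ := Finset.range 248)]
  · rw [Finset.sum_range_succ, Finset.sum_range_succ, Finset.sum_range_succ, Finset.sum_range_succ, Finset.sum_range_one,
      ← hz 0 (by norm_num), ← hz 1 (by norm_num), ← hz 2 (by norm_num), ← hz 3 (by norm_num), ← hz 4 (by norm_num),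
      vl_tri hS, vl_tri hS, vl_tri hS, vl_tri hS, vl_tri hS]
    push_cast
    ring_nf
  · intro i hi
    rw [Finset.mem_range] at hi ⊢
    omega
  · intro i _ hi
    rw [Finset.mem_range] at hi
    rw [hv i (by omega), mul_zero]

/-- the value of the polynomial at the position `k` -/
def pol (T0 T1 T2 T3 T4 : St) (k : ℕ) (z : ℕ → ℕ) : ℕ :=
  z 0 * rv T0 k z + (z 1 * rv T1 k z + (z 2 * rv T2 k z + (z 3 * rv T3 k z + z 4 * rv T4 k z)))

/-- coefficients as natural numbers -/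
def zz (a b c d : ℕ) : ℕ → ℕ
  | 0 => 1
  | 1 => a
  | 2 => b
  | 3 => c
  | 4 => d
  | _ => 0

/-- the test for one `z` -/
def tst (T0 T1 T2 T3 T4 : St) (a b c d : ℕ) : Bool :=
  (Nat.beq a 0 && Nat.beq c 0 && Nat.beq d 0) ||
    !(Nat.beq (pol T0 T1 T2 T3 T4 6 (zz a b c d) % 3) 0) || !(Nat.beq (pol T0 T1 T2 T3 T4 18 (zz a b c d) % 3) 0) ||
    !(Nat.beq (pol T0 T1 T2 T3 T4 43 (zz a b c d) % 3) 0)

/-- force a state -/
def fst (S : St) (k : St → Bool) : Bool :=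
  match S with
  | (p, n) => frc p fun p => frc n fun n => k (p, n)

theorem fst_eq (S : St) (k : St → Bool) : fst S k = k S := by
  obtain ⟨p, n⟩ := S
  unfold fst
  simp only [frc_eq]

/-- the whole test -/
def chk : Bool :=
  fst S1 fun S => fst (aw rows (hl 0) S) fun T0 => fst (aw rows (hl 1) S) fun T1 => fst (aw rows (hl 2) S) fun T2 =>
    fst (aw rows (hl 3) S) fun T3 => fst (aw rows (hl 4) S) fun T4 =>
      (List.range 3).all fun a => (List.range 3).all fun b => (List.range 3).all fun c => (List.range 3).all fun d =>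
        tst T0 T1 T2 T3 T4 a b c d

theorem chk_ok : chk = true := by decide +kernel

theorem chk_spec (a b c d : ℕ) (ha : a < 3) (hb : b < 3) (hc : c < 3) (hd : d < 3) :
    tst (aw rows (hl 0) S1) (aw rows (hl 1) S1) (aw rows (hl 2) S1) (aw rows (hl 3) S1) (aw rows (hl 4) S1) a b c d = true := by
  have h := chk_ok
  unfold chk at h
  rw [fst_eq, fst_eq, fst_eq, fst_eq, fst_eq, fst_eq, List.all_eq_true] at h
  have h1 := h a (List.mem_range.2 ha)
  rw [List.all_eq_true] at h1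
  have h2 := h1 b (List.mem_range.2 hb)
  rw [List.all_eq_true] at h2
  have h3 := h2 c (List.mem_range.2 hc)
  rw [List.all_eq_true] at h3
  exact h3 d (List.mem_range.2 hd)

theorem exists_coord {k : ℕ} (hk : k < 240) : ∃ x : chevE8.Idx, ky x = k :=
  ⟨Sum.inr ⟨k, by rw [nr]; exact hk⟩, rfl⟩

/-- the polynomial is the coordinate of `[r, [r, q]]` -/
theorem pol_eq (z : ℕ → ℕ) {v : ℕ → ZMod 3} (hz : ∀ i < 5, (z i : ZMod 3) = v i) (hv : ∀ i, 5 ≤ i → v i = 0) {k : ℕ}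
    {x : chevE8.Idx} (hx : ky x = k) :
    br (rr v) (br (rr v) (vb ql)) x =
      (pol (aw rows (hl 0) S1) (aw rows (hl 1) S1) (aw rows (hl 2) S1) (aw rows (hl 3) S1) (aw rows (hl 4) S1) k z : ZMod 3) := by
  have key : ∀ i : Fin 5, br (vb (hl i.val)) (br (rr v) (vb ql)) x = (rv (aw rows (hl i.val) S1) k z : ZMod 3) := by
    intro i
    have h := aw_s (sem_S1 v) i
    rw [← h.2 x, hx]
    exact rv_eq h.1 k z hz hv
  obtain ⟨u, hu⟩ : ∃ u, u = br (rr v) (vb ql) := ⟨_, rfl⟩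
  rw [← hu] at key ⊢
  unfold rr
  rw [br_add_left, br_add_left, br_add_left, br_add_left, br_smul_left, br_smul_left, br_smul_left, br_smul_left,
    br_smul_left]
  simp only [Pi.add_apply, Pi.smul_apply, smul_eq_mul]
  have k0 := key 0
  have k1 := key 1
  have k2 := key 2
  have k3 := key 3
  have k4 := key 4
  have e0 : ((0 : Fin 5) : ℕ) = 0 := rfl
  have e1 : ((1 : Fin 5) : ℕ) = 1 := rfl
  have e2 : ((2 : Fin 5) : ℕ) = 2 := rfl
  have e3 : ((3 : Fin 5) : ℕ) = 3 := rfl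
  have e4 : ((4 : Fin 5) : ℕ) = 4 := rfl
  rw [e0] at k0
  rw [e1] at k1
  rw [e2] at k2
  rw [e3] at k3
  rw [e4] at k4
  rw [k0, k1, k2, k3, k4, ← hz 0 (by norm_num), ← hz 1 (by norm_num), ← hz 2 (by norm_num), ← hz 3 (by norm_num),
    ← hz 4 (by norm_num)]
  unfold pol
  push_cast
  rfl

theorem zmod_rep (z : ZMod 3) : ∃ n : ℕ, n < 3 ∧ (n : ZMod 3) = z := ⟨z.val, ZMod.val_lt z, ZMod.natCast_zmod_val z⟩

theorem rr_vv (z1 z2 z3 z4 : ZMod 3) :
    rr (vv z1 z2 z3 z4) = vb r0 + z1 • vb bh1 + z2 • vb bh2 + z3 • vb bh3 + z4 • vb bh4 := by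
  show (1 : ZMod 3) • vb r0 + (z1 • vb bh1 + (z2 • vb bh2 + (z3 • vb bh3 + z4 • vb bh4))) = _
  rw [one_smul]
  abel

/-- **(N1)** -/
theorem n1 (z1 z2 z3 z4 : ZMod 3) {r : L3}
    (hr : r = vb r0 + z1 • vb bh1 + z2 • vb bh2 + z3 • vb bh3 + z4 • vb bh4) (h : br r (br r (vb ql)) = 0) :
    z1 = 0 ∧ z3 = 0 ∧ z4 = 0 := by
  rw [← rr_vv] at hr
  subst hr
  obtain ⟨a, ha, rfl⟩ := zmod_rep z1
  obtain ⟨b, hb, rfl⟩ := zmod_rep z2
  obtain ⟨c, hc, rfl⟩ := zmod_rep z3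
  obtain ⟨d, hd, rfl⟩ := zmod_rep z4
  have h1 := chk_spec a b c d ha hb hc hd
  have hz : ∀ i < 5, ((zz a b c d i : ℕ) : ZMod 3) = vv a b c d i := by
    intro i hi
    interval_cases i
    · exact Nat.cast_one
    · rfl
    · rfl
    · rfl
    · rfl
  have hv : ∀ i, 5 ≤ i → vv (a : ZMod 3) b c d i = 0 := by
    intro i hi
    obtain ⟨j, rfl⟩ := Nat.exists_eq_add_of_le' hi
    rfl
  have hp : ∀ k < 240, pol (aw rows (hl 0) S1) (aw rows (hl 1) S1) (aw rows (hl 2) S1) (aw rows (hl 3) S1)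
      (aw rows (hl 4) S1) k (zz a b c d) % 3 = 0 := by
    intro k hk
    obtain ⟨x, hx⟩ := exists_coord hk
    have h2 := pol_eq (zz a b c d) hz hv hx
    rw [h] at h2
    have h3 : ((pol (aw rows (hl 0) S1) (aw rows (hl 1) S1) (aw rows (hl 2) S1) (aw rows (hl 3) S1)
      (aw rows (hl 4) S1) k (zz a b c d) : ℕ) : ZMod 3) = 0 := h2.symm
    exact Nat.mod_eq_zero_of_dvd ((ZMod.natCast_eq_zero_iff _ 3).1 h3)
  unfold tst at h1
  rw [hp 6 (by norm_num), hp 18 (by norm_num), hp 43 (by norm_num)] at h1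
  simp only [Bool.or_eq_true, Bool.and_eq_true, Bool.not_eq_true', Nat.beq_refl] at h1
  rcases h1 with ((h1 | h1) | h1) | h1
  · obtain ⟨⟨e1, e2⟩, e3⟩ := h1
    rw [Nat.eq_of_beq_eq_true e1, Nat.eq_of_beq_eq_true e2, Nat.eq_of_beq_eq_true e3]
    exact ⟨Nat.cast_zero, Nat.cast_zero, Nat.cast_zero⟩
  · exact absurd h1 (by simp)
  · exact absurd h1 (by simp)
  · exact absurd h1 (by simp)

end Cfsg.Agent.H977.E83.Cand
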